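import Groth.Agent.Flat2D.CMBase
import Groth.Agent.Flat2D.EssRes
import Mathlib.AlgebraicGeometry.Morphisms.FinitePresentation

/-!
# The codepth of the local rings of the fibres is invariant under base change
-/

set_option autoImplicit false

universe u v

open CategoryTheory Limits AlgebraicGeometry TensorProduct

namespace Groth.Agent.Ega4fib.H171.CodField

open Groth.Agent Groth.Agent.Flat2D.PbStalk Groth.Agent.Flat2D.CMBase Groth.Agent.Ega4C

/-- `R` is a local ring with `dim R = depth R + n`. -/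
def Cod (n : ℕ) (R : Type v) [CommRing R] : Prop :=
  ∃ _ : IsLocalRing R, ringKrullDim R = ((LocCoh.depth R R : ℕ∞) : WithBot ℕ∞) + n

theorem cod_iff (n : ℕ) (R : Type v) [CommRing R] [h : IsLocalRing R] :
    Cod n R ↔ ringKrullDim R = ((LocCoh.depth R R : ℕ∞) : WithBot ℕ∞) + n :=
  ⟨fun ⟨_, h⟩ => h, fun h' => ⟨h, h'⟩⟩

theorem cod_of_ringEquiv {n : ℕ} {R S : Type v} [CommRing R] [CommRing S]
    (e : R ≃+* S) (h : Cod n R) : Cod n S := by
  obtain ⟨h1, h2⟩ := h
  have h3 : IsLocalRing S := e.isLocalRing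
  rw [cod_iff, ← ringKrullDim_eq_of_ringEquiv e, ← FlatLocal.depth_self_congr e]
  exact h2

theorem cod_congr {n : ℕ} {R S : Type v} [CommRing R] [CommRing S]
    (e : R ≃+* S) : Cod n R ↔ Cod n S :=
  ⟨cod_of_ringEquiv e, cod_of_ringEquiv e.symm⟩

/-- Codepth is preserved by flat local homomorphisms of Noetherian local rings with Cohen-Macaulay
closed fibre. -/
theorem cod_iff_of_flat (n : ℕ) (R S : Type u) [CommRing R] [CommRing S] [IsLocalRing R]
    [IsLocalRing S] [IsNoetherianRing R] [IsNoetherianRing S] [Algebra R S]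
    [IsLocalHom (algebraMap R S)] [Module.Flat R S]
    (h : LocCoh.IsCohenMacaulayLocalRing (EGA4.FibRing R S)) : Cod n S ↔ Cod n R := by
  rw [cod_iff, cod_iff]
  have h1 := FlatLocal.depth_eq R S
  have h2 := FlatLocal.ringKrullDim_eq R S
  obtain ⟨a, ha⟩ := FlatLocal.exists_depth_eq R
  obtain ⟨b, hb⟩ := FlatLocal.exists_depth_eq S
  obtain ⟨c, hc⟩ := FlatLocal.exists_depth_eq (EGA4.FibRing R S)
  obtain ⟨a', ha'⟩ := FlatLocal.exists_ringKrullDim_eq R
  obtain ⟨b', hb'⟩ := FlatLocal.exists_ringKrullDim_eq S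
  obtain ⟨c', hc'⟩ := FlatLocal.exists_ringKrullDim_eq (EGA4.FibRing R S)
  rw [FlatLocal.isCM_iff_depth, hc, hc'] at h
  rw [ha, hb, hc] at h1
  rw [ha', hb', hc'] at h2
  rw [ha, hb, ha', hb']
  norm_cast at h h1 h2 ⊢
  omega

/-- The local ring of the fibre through `x` at `x`, as `O_{X,x} / m_{f x} O_{X,x}`, has codepth `n`. -/
def CodFib (n : ℕ) {X Y : Scheme.{u}} (f : X ⟶ Y) (x : X) : Prop :=
  Cod n (X.presheaf.stalk x ⧸ fiberIdeal f x)

lemma codFib_iff (n : ℕ) {X Y : Scheme.{u}} (f : X ⟶ Y) (x : X) :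
    CodFib n f x ↔ ringKrullDim ((f.fiber (f.base x)).presheaf.stalk (f.asFiber x)) =
        ((LocCoh.depth ((f.fiber (f.base x)).presheaf.stalk (f.asFiber x))
          ((f.fiber (f.base x)).presheaf.stalk (f.asFiber x)) : ℕ∞) : WithBot ℕ∞) + n := by
  refine (cod_congr (fiberStalkEquiv f x)).trans ?_
  exact cod_iff n ((f.fiber (f.base x)).presheaf.stalk (f.asFiber x))

lemma codFib_iff_of_isPullback (n : ℕ) {X Y F : Scheme.{u}} (f : X ⟶ Y) {y : Y} {i : F ⟶ X}
    {p : F ⟶ Spec (Y.residueField y)} (H : IsPullback i p f (Y.fromSpecResidueField y)) (z : F) :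
    CodFib n f (i z) ↔ Cod n (F.presheaf.stalk z) := by
  have : IsPreimmersion i := isPreimmersion_of_isPullback f H
  exact cod_congr
    ((Ideal.quotEquivOfEq (ker_stalkMap_of_isPullback f H z).symm).trans
      (RingHom.quotientKerEquivOfSurjective (i.stalkMap_surjective z)))

/-- For a flat morphism at a point, with Noetherian local rings and Cohen-Macaulay fibre: the codepths of
the total space and the base agree. -/
lemma cod_iff_of_flat_stalk (n : ℕ) {X Y : Scheme.{u}} (f : X ⟶ Y) (x : X)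
    (hf : (f.stalkMap x).hom.Flat)
    [IsNoetherianRing (X.presheaf.stalk x)] [IsNoetherianRing (Y.presheaf.stalk (f x))]
    (h : CMFib f x) :
    Cod n (X.presheaf.stalk x) ↔ Cod n (Y.presheaf.stalk (f x)) := by
  let : Algebra (Y.presheaf.stalk (f x)) (X.presheaf.stalk x) := (f.stalkMap x).hom.toAlgebra
  have h1 : Module.Flat (Y.presheaf.stalk (f x)) (X.presheaf.stalk x) := hf
  have h2 : IsLocalHom (algebraMap (Y.presheaf.stalk (f x)) (X.presheaf.stalk x)) :=
    inferInstanceAs (IsLocalHom (f.stalkMap x).hom)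
  exact cod_iff_of_flat n (Y.presheaf.stalk (f x)) (X.presheaf.stalk x) h

section Field

variable {κ κ' : CommRingCat.{u}} {F F' : Scheme.{u}} {φ : κ ⟶ κ'} {p : F ⟶ Spec κ}
  {p' : F' ⟶ Spec κ'} {q : F' ⟶ F}

/-- Codepth is invariant under field base change. -/
theorem cod_stalk_iff_of_field (n : ℕ) (hκ : IsField κ) (hκ' : IsField κ')
    (H : IsPullback q p' p (Spec.map φ)) (z' : F')
    (h : φ.hom.EssFiniteType ∨ (resMap p (q z')).hom.EssFiniteType)
    [IsNoetherianRing (F.presheaf.stalk (q z'))] [IsNoetherianRing (F'.presheaf.stalk z')] :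
    Cod n (F'.presheaf.stalk z') ↔ Cod n (F.presheaf.stalk (q z')) := by
  have hφ : Flat (Spec.map φ) := by
    rw [Flat.SpecMap_iff]
    exact RingHom.Flat.of_isField hκ _
  have hq : Flat q := MorphismProperty.of_isPullback H.flip hφ
  exact cod_iff_of_flat_stalk n q z' (Flat.stalkMap q z') (cmFib_of_field hκ hκ' H z' h)

end Field

section BaseChange

variable {X Y X' Y' : Scheme.{u}} {f : X ⟶ Y} {f' : X' ⟶ Y'} {g' : X' ⟶ X} {g : Y' ⟶ Y}

/-- Behaviour of the codepth of the fibres under base change. -/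
theorem codFib_iff_of_baseChange (n : ℕ) (hc : IsPullback g' f' f g) (x' : X')
    (h : (g.residueFieldMap (f' x')).hom.EssFiniteType ∨
      (resMap (f.fiberToSpecResidueField (g (f' x')))
        (fibMap hc (f' x') (f'.asFiber x'))).hom.EssFiniteType)
    [IsNoetherianRing ((f.fiber (g (f' x'))).presheaf.stalk (fibMap hc (f' x') (f'.asFiber x')))]
    [IsNoetherianRing ((f'.fiber (f' x')).presheaf.stalk (f'.asFiber x'))] :
    CodFib n f' x' ↔ CodFib n f (g' x') := by
  have h1 : CodFib n f' x' ↔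
      Cod n ((f'.fiber (f' x')).presheaf.stalk (f'.asFiber x')) :=
    cod_congr (fiberStalkEquiv f' x')
  have h2 := codFib_iff_of_isPullback n f
    (IsPullback.of_hasPullback f (Y.fromSpecResidueField (g (f' x'))))
    (fibMap hc (f' x') (f'.asFiber x'))
  have h3 : (pullback.fst f (Y.fromSpecResidueField (g (f' x'))))
      (fibMap hc (f' x') (f'.asFiber x')) = g' x' := by
    change (f.fiberι (g (f' x'))) (fibMap hc (f' x') (f'.asFiber x')) = g' x'
    rw [← Scheme.Hom.comp_apply, fibMap_fiberι, Scheme.Hom.comp_apply, f'.fiberι_asFiber]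
  rw [h3] at h2
  rw [h1, h2]
  exact cod_stalk_iff_of_field n (Field.toIsField _) (Field.toIsField _)
    (fibMap_isPullback hc (f' x')) (f'.asFiber x') h

/-- Codepth of the fibres is invariant under base change, for morphisms locally of finite type. -/
theorem codFib_baseChange (n : ℕ) (hc : IsPullback g' f' f g) [LocallyOfFiniteType f] (x' : X') :
    CodFib n f' x' ↔ CodFib n f (g' x') := by
  have hf' : LocallyOfFiniteType f' := MorphismProperty.of_isPullback hc ‹_›
  have h1 : LocallyOfFiniteType (f.fiberToSpecResidueField (g (f' x'))) :=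
    MorphismProperty.pullback_snd _ _ inferInstance
  have h2 : LocallyOfFiniteType (f'.fiberToSpecResidueField (f' x')) :=
    MorphismProperty.pullback_snd _ _ inferInstance
  have h3 : IsLocallyNoetherian (f.fiber (g (f' x'))) :=
    LocallyOfFiniteType.isLocallyNoetherian (f.fiberToSpecResidueField (g (f' x')))
  have h4 : IsLocallyNoetherian (f'.fiber (f' x')) :=
    LocallyOfFiniteType.isLocallyNoetherian (f'.fiberToSpecResidueField (f' x'))
  exact codFib_iff_of_baseChange n hc x' (Or.inr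
    (Groth.Agent.Flat2D.EssRes.essFiniteType_of_SpecMap_eq _ _ _
      (Groth.Agent.Flat2D.CMBase.SpecMap_resMap _ _)))

end BaseChange

end Groth.Agent.Ega4fib.H171.CodField
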