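import Groth.Agent.Ega43.FibAff

/-!
# Openness of the loci `codepth ≤ c` of the local rings of the fibres, flat case
-/

set_option autoImplicit false
universe u

open TensorProduct EGA4 CategoryTheory Function

namespace Groth.Agent.Ega4fib.H171.FibCodepth

open Groth.Agent Groth.Agent.Ega43 FibChev FibSpec FibPd FibCM FibTransfer FibAff

attribute [local instance] FibCM.isLocalRing_fib

section Main

variable (A : Type u) [CommRing A] (N : ℕ) (M : Type u) [AddCommGroup M]
  [Module (MvPolynomial (Fin N) A) M]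

/-- `dim ≤ depth + c` for the fibre module. -/
def GoodC (c : ℕ) (Q : PrimeSpectrum (MvPolynomial (Fin N) A)) : Prop :=
  Module.supportDim (FibLocRing A (MvPolynomial (Fin N) A) Q.asIdeal)
    (FibLocMod A (MvPolynomial (Fin N) A) Q.asIdeal M) ≤
  ((LocCoh.depth (FibLocRing A (MvPolynomial (Fin N) A) Q.asIdeal)
    (FibLocMod A (MvPolynomial (Fin N) A) Q.asIdeal M) : ℕ∞) : WithBot ℕ∞) + c

variable [Module.Finite (MvPolynomial (Fin N) A) M]

theorem goodC_iff (c : ℕ) (Q : PrimeSpectrum (MvPolynomial (Fin N) A)) : GoodC A N M c Q ↔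
    ∃ m : ℕ, HasProjectiveDimensionLE (ModuleCat.of
        (FibLocRing A (MvPolynomial (Fin N) A) Q.asIdeal)
        (FibLocMod A (MvPolynomial (Fin N) A) Q.asIdeal M)) (m + c) ∧
      (m = 0 ∨ ∃ n, m = n + 1 ∧ Q ∉ E (Module.support (MvPolynomial (Fin N) A) M) n) := by
  have hreg := isRegularLocalRing_fib (A := A) (N := N) Q.asIdeal
  have h0 := Ega4B.Codepth.supportDim_le_depth_add_iff
    (B := FibLocRing A (MvPolynomial (Fin N) A) Q.asIdeal)
    (N := FibLocMod A (MvPolynomial (Fin N) A) Q.asIdeal M) c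
  refine Iff.trans h0 ?_
  refine exists_congr fun m ↦ ?_
  rw [projectiveDimension_le_iff, forall_height_iff]
  refine and_congr Iff.rfl ?_
  rcases m with _ | n
  · simp only [true_or, iff_true]
    intro Q' _ _ _
    exact_mod_cast ringKrullDim_nonneg_of_nontrivial
  · simp only [Nat.add_eq_zero_iff, one_ne_zero, and_false, Nat.add_right_cancel_iff, false_or]
    constructor
    · intro h
      refine ⟨n, rfl, ?_⟩
      rintro ⟨Q', hQ', hle, hc, hd⟩
      exact (not_le_iff _ _).mpr (h Q' hQ' hle hc) hd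
    · rintro ⟨n', rfl, hn⟩ Q' hQ' hle hc
      rw [← not_le_iff]
      intro h
      exact hn ⟨Q', hQ', hle, hc, h⟩

theorem isOpen_goodC [Module A M] [IsScalarTower A (MvPolynomial (Fin N) A) M]
    [Module.FinitePresentation (MvPolynomial (Fin N) A) M] [Module.Flat A M]
    (hK : KerFP A (MvPolynomial (Fin N) A)) (c : ℕ) :
    IsOpen {Q : PrimeSpectrum (MvPolynomial (Fin N) A) | GoodC A N M c Q} := by
  have h : {Q : PrimeSpectrum (MvPolynomial (Fin N) A) | GoodC A N M c Q} =
      ⋃ m : ℕ, {Q | HasProjectiveDimensionLE (ModuleCat.of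
        (FibLocRing A (MvPolynomial (Fin N) A) Q.asIdeal)
        (FibLocMod A (MvPolynomial (Fin N) A) Q.asIdeal M)) (m + c)} ∩
        {Q | m = 0 ∨ ∃ n, m = n + 1 ∧ Q ∉ E (Module.support (MvPolynomial (Fin N) A) M) n} := by
    ext Q
    simp only [Set.mem_ofPred_eq, Set.mem_iUnion, Set.mem_inter_iff, goodC_iff]
  rw [h]
  refine isOpen_iUnion fun m ↦ (isOpen_pd A _ hK (m + c) M).inter ?_
  rcases m with _ | n
  · simp
  · have : {Q : PrimeSpectrum (MvPolynomial (Fin N) A) | n + 1 = 0 ∨ ∃ n', n + 1 = n' + 1 ∧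
        Q ∉ E (Module.support (MvPolynomial (Fin N) A) M) n'} =
        (E (Module.support (MvPolynomial (Fin N) A) M) n)ᶜ := by
      ext Q
      simp only [Set.mem_ofPred_eq, Set.mem_compl_iff]
      constructor
      · rintro (h | ⟨n', hn', h⟩)
        · omega
        · obtain rfl : n = n' := by omega
          exact h
      · intro h
        exact Or.inr ⟨n, rfl, h⟩
    rw [this, isOpen_compl_iff]
    refine isClosed_E _ ?_ _
    exact Module.isClosed_support

end Main

section Affine

variable {A B : Type u} [CommRing A] [CommRing B] [Algebra A B]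

/-- The loci `codepth ≤ c` of the fibre local rings are open for flat finitely presented algebras. -/
theorem isOpen_codepth_le [Algebra.FinitePresentation A B] [Module.Flat A B] (c : ℕ) :
    IsOpen {q : PrimeSpectrum B | ringKrullDim (FibLocRing A B q.asIdeal) ≤
      ((LocCoh.depth (FibLocRing A B q.asIdeal) (FibLocRing A B q.asIdeal) : ℕ∞) :
        WithBot ℕ∞) + c} := by
  obtain ⟨N, φ, hφ, hker⟩ := exists_poly (A := A) (B := B)
  let : Algebra (MvPolynomial (Fin N) A) B := φ.toRingHom.toAlgebra
  have : IsScalarTower A (MvPolynomial (Fin N) A) B :=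
    IsScalarTower.of_algebraMap_eq' φ.comp_algebraMap.symm
  have : Module.FinitePresentation (MvPolynomial (Fin N) A) B :=
    Module.finitePresentation_of_surjective (Algebra.linearMap (MvPolynomial (Fin N) A) B) hφ hker
  have hopen := isOpen_goodC A N B (FlatKer.kerFP A (MvPolynomial (Fin N) A)) c
  have h := hopen.preimage (PrimeSpectrum.continuous_comap (algebraMap (MvPolynomial (Fin N) A) B))
  convert h using 1
  ext q
  rw [Set.mem_ofPred_eq, Set.mem_preimage, Set.mem_ofPred_eq]
  obtain ⟨σ, e, hσ, he⟩ := exists_fib_equiv (A := A) hφ B q.asIdeal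
  unfold GoodC
  have h1 := Ega4B.DepthTransfer.supportDim_eq σ e he hσ
  have h2 := Ega4B.DepthTransfer.depth_eq σ e he hσ
  have h3 : Module.supportDim (FibLocRing A B q.asIdeal) (FibLocMod A B q.asIdeal B) =
      ringKrullDim (FibLocRing A B q.asIdeal) := by
    rw [Module.supportDim_eq_of_equiv (fibSelf q.asIdeal), Module.supportDim_self_eq_ringKrullDim]
  have h4 : LocCoh.depth (FibLocRing A B q.asIdeal) (FibLocMod A B q.asIdeal B) =
      LocCoh.depth (FibLocRing A B q.asIdeal) (FibLocRing A B q.asIdeal) :=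
    Ega4B.DepthBasic.depth_congr (fibSelf (A := A) q.asIdeal)
  rw [← h3, ← h4, h1, h2]
  rfl

end Affine

end Groth.Agent.Ega4fib.H171.FibCodepth
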